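import Mathlib

set_option autoImplicit false

namespace Cfsg.Agent.H16.DoubleCover

open Subgroup

/-- A centre of order two with a nonabelian simple quotient. -/
theorem center_of_quot {H K : Type*} [Group H] [Group K] [hK : IsSimpleGroup K]
    (hKc : Subgroup.center K = ⊥) (z : H) (hz1 : z ≠ 1) (hz2 : z * z = 1) (hzc : ∀ x, x * z = z * x)
    [hN : (zpowers z).Normal] (φ : K →* H ⧸ zpowers z) (hφ : Function.Surjective φ)
    (hnt : ∃ x : H, x ∉ zpowers z) :
    Nat.card (Subgroup.center H) = 2 ∧ Nonempty (H ⧸ Subgroup.center H ≃* K) ∧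
      Subgroup.center H = zpowers z := by
  have hinj : Function.Injective φ := by
    rcases (φ.normal_ker).eq_bot_or_eq_top with h | h
    · exact (MonoidHom.ker_eq_bot_iff φ).1 h
    · exfalso
      obtain ⟨x, hx⟩ := hnt
      obtain ⟨y, hy⟩ := hφ (QuotientGroup.mk x)
      have hy1 : y ∈ φ.ker := by rw [h]; trivial
      rw [MonoidHom.mem_ker] at hy1
      rw [hy1] at hy
      exact hx ((QuotientGroup.eq_one_iff x).1 hy.symm)
  have hcen : Subgroup.center H = zpowers z := by
    apply le_antisymm
    · intro x hx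
      obtain ⟨y, hy⟩ := hφ (QuotientGroup.mk x)
      have hy1 : y ∈ Subgroup.center K := by
        rw [Subgroup.mem_center_iff]
        intro k
        apply hinj
        rw [map_mul, map_mul, hy]
        obtain ⟨w, hw⟩ := QuotientGroup.mk_surjective (φ k)
        rw [← hw, ← QuotientGroup.mk_mul, ← QuotientGroup.mk_mul, (Subgroup.mem_center_iff.1 hx) w]
      rw [hKc, Subgroup.mem_bot] at hy1
      rw [hy1, map_one] at hy
      exact (QuotientGroup.eq_one_iff x).1 hy.symm
    · rw [zpowers_le, Subgroup.mem_center_iff]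
      exact hzc
  refine ⟨?_, ?_, hcen⟩
  · rw [hcen, Nat.card_zpowers]
    apply orderOf_eq_prime
    · rw [pow_two, hz2]
    · exact hz1
  · have e1 := MulEquiv.ofBijective φ ⟨hinj, hφ⟩
    haveI : (Subgroup.center H).Normal := inferInstance
    exact ⟨(QuotientGroup.quotientMulEquivOfEq hcen).trans e1.symm⟩

theorem conj_mem {H : Type*} [Group H] (L : Subgroup H) [L.Normal] {x y : H} (hx : x * x = 1) (hy : y * y = 1)
    (h3 : (x * y) ^ 3 = 1) (hxL : x ∈ L) : y ∈ L := by
  have hxi : x⁻¹ = x := inv_eq_of_mul_eq_one_left hx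
  have hyi : y⁻¹ = y := inv_eq_of_mul_eq_one_left hy
  have e : y = (x * y) * x * (x * y)⁻¹ := by
    rw [mul_inv_rev, hxi, hyi]
    have h4 : x * y * (x * y) * (x * y) = 1 := by
      rw [← h3]; simp only [pow_succ, pow_zero, one_mul]
    have h5 : x * y * x * (y * x) = y := by
      have : x * y * x * (y * x) * y = 1 := by
        rw [← h4]; simp only [mul_assoc]
      calc x * y * x * (y * x) = x * y * x * (y * x) * (y * y) := by rw [hy, mul_one]
        _ = (x * y * x * (y * x) * y) * y := by simp only [mul_assoc]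
        _ = y := by rw [this, one_mul]
    rw [h5]
  rw [e]
  exact ‹L.Normal›.conj_mem x hxL (x * y)

end Cfsg.Agent.H16.DoubleCover
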