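import Cfsg.Agent.S1689
import Cfsg.Agent.Lib.H16.CE.S1688.Q
import Cfsg.Statements.S1688
import Cfsg.Agent.Lib.H16.DoubleCover
import Cfsg.Prelude.Def_Sporadic

set_option autoImplicit false

namespace Cfsg.Agent.H16.F23Cover

open Cfsg.Agent.H16.CosetEnum Cfsg.Agent.H16.Enum Cfsg.Spor Subgroup
open Cfsg.Agent.H16.CE.S1689 Cfsg.Agent.H16.CE.S1688

local notation "RR" => Cfsg.Agent.S1689.R
local notation "SS" => Cfsg.Agent.S1689.S

/-- The letters. -/
noncomputable abbrev ell : ℕ → PresentedGroup RR := lt RR Cfsg.Agent.S1689.gs 10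

abbrev HH : Subgroup (PresentedGroup RR) := (Subgroup.closure SS).map (PresentedGroup.mk RR)

theorem ev_flatten {P : Type*} [Group P] (g : ℕ → P) (w : List ℕ) (n : ℕ) :
    ev g (List.replicate n w).flatten = (ev g w) ^ n := by
  induction n with
  | zero => simp [ev]
  | succ n ih =>
    rw [List.replicate_succ, List.flatten_cons, ev_append, ih, pow_succ']

section Core

variable (hG : IsSimpleGroup (PresentedGroup RR))

include hG

theorem core : ev ell wz * ev ell wz = 1 ∧ ev ell wz ≠ 1 ∧
    (∀ a ∈ [0,1,2,3,4,5,6,8,9], ev ell wz * ell a = ell a * ev ell wz) ∧ ell 0 ≠ ev ell wz ∧ ell 0 ≠ 1 := by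
  obtain ⟨act, T, -⟩ := Cfsg.Agent.S1689.main
  haveI := Cfsg.Agent.S1689.instNZ
  have hN : 0 < 31671 := by norm_num
  have hw : ∀ w : List ℕ, (∀ a ∈ w, a < 10) → ∀ i : Fin 31671, (ract act (ev ell w) i : ℕ) = walk tt i w := by
    intro w
    induction w with
    | nil =>
      intro _ i
      show (ract act 1 i : ℕ) = i
      rw [ract_one]
    | cons a r ih =>
      intro h i
      have h1 := ih (fun b hb => h b (List.mem_cons_of_mem _ hb)) (ract act (ell a) i)
      show (ract act (ell a * ev ell r) i : ℕ) = walk tt (tt a i) r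
      rw [ract_mul, h1, T.hact a (h a List.mem_cons_self) i]
  have hinj : ∀ x y : PresentedGroup RR, (∀ i, ract act x i = ract act y i) → x = y := by
    have hker : act.ker = ⊥ := by
      rcases (act.normal_ker).eq_bot_or_eq_top with h | h
      · exact h
      · exfalso
        have h7 : ell 7 ∈ act.ker := by rw [h]; trivial
        rw [MonoidHom.mem_ker] at h7
        have h8 := T.hact 7 (by norm_num) ⟨0, hN⟩
        have h9 : ract act (ell 7) ⟨0, hN⟩ = ⟨0, hN⟩ := by
          unfold ract
          rw [h7]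
          rfl
        rw [h9] at h8
        have h10 : tt 7 0 = 1 := t7_0
        simp only [h10] at h8
        exact absurd h8 (by norm_num)
    have hi := (MonoidHom.ker_eq_bot_iff act).1 hker
    intro x y h
    apply hi
    apply MulOpposite.unop_injective
    ext i
    exact congrArg Fin.val (h i)
  have hwz : ∀ a ∈ wz, a < 10 := by decide
  have hz : ∀ i : Fin 31671, (ract act (ev ell wz) i : ℕ) = pz i := by
    intro i
    rw [hw _ hwz]
    have h1 := allAt_spec (all_z i i.2) (fun i => Nat.beq (walk tt i wz) (pz i)) (by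
      rw [hLZ]; exact List.mem_cons_self)
    exact beq_eq h1
  have hzz : ∀ i : ℕ, i < 31671 → pz (pz i) = i := by
    intro i hi
    have h1 := allAt_spec (all_z i hi) (fun i => Nat.beq (pz (pz i)) i) (by
      rw [hLZ]; exact List.mem_cons_of_mem _ List.mem_cons_self)
    exact beq_eq h1
  have hzc : ∀ a ∈ [0,1,2,3,4,5,6,8,9], ∀ i : ℕ, i < 31671 → pz (tt a i) = tt a (pz i) := by
    intro a ha i hi
    have h1 := allAt_spec (all_z i hi) (fun i => Nat.beq (pz (tt a i)) (tt a (pz i))) (by
      rw [hLZ]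
      exact List.mem_append_right _ (List.mem_map.2 ⟨a, ha, rfl⟩))
    exact beq_eq h1
  refine ⟨?_, ?_, ?_, ?_, ?_⟩
  · apply hinj
    intro i
    apply Fin.ext
    rw [ract_mul, hz, hz, ract_one]
    exact hzz _ i.2
  · intro h
    have h1 := hz ⟨1, by norm_num⟩
    rw [h, ract_one] at h1
    have h2 : pz 1 = 8006 := pz_1
    simp only [h2] at h1
    exact absurd h1 (by norm_num)
  · intro a ha
    have ha10 : a < 10 := by
      simp only [List.mem_cons, List.not_mem_nil, or_false] at ha
      omega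
    apply hinj
    intro i
    apply Fin.ext
    rw [ract_mul, ract_mul, hz, T.hact a ha10, hz, T.hact a ha10]
    exact (hzc a ha _ i.2).symm
  · intro h
    have h1 := hz ⟨8, by norm_num⟩
    rw [← h, T.hact 0 (by norm_num)] at h1
    have h2 : tt 0 8 = 11 := t0_b
    have h3 : pz 8 = 1732 := pz_b
    simp only [h2, h3] at h1
    exact absurd h1 (by norm_num)
  · intro h
    have h1 : (ract act (ell 0) ⟨8, by norm_num⟩ : ℕ) = tt 0 8 := T.hact 0 (by norm_num) ⟨8, by norm_num⟩
    rw [h, ract_one] at h1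
    have h2 : tt 0 8 = 11 := t0_b
    simp only [h2] at h1
    exact absurd h1 (by norm_num)

end Core

/-- The embedding of generators. -/
def iota : Fi22.Gen → Fi23.Gen
  | .a => .a | .b => .b | .c => .c | .d => .d | .e => .e | .f => .f | .g => .g | .h => .h | .i => .i

theorem iota_mem (x : Fi22.Gen) : FreeGroup.of (iota x) ∈ Subgroup.closure SS := by
  apply Subgroup.subset_closure
  cases x <;> simp [iota]

/-- The generators of `H`. -/
noncomputable def sg (x : Fi22.Gen) : HH :=
  ⟨PresentedGroup.mk RR (FreeGroup.of (iota x)), ⟨_, iota_mem x, rfl⟩⟩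

/-- Words in the generators of `H`. -/
noncomputable def lsg : FreeGroup Fi22.Gen →* HH := FreeGroup.lift sg

theorem coe_lsg (r : FreeGroup Fi22.Gen) :
    ((lsg r : HH) : PresentedGroup RR) = PresentedGroup.mk RR (FreeGroup.map iota r) := by
  have : (HH.subtype.comp lsg) = (PresentedGroup.mk RR).comp (FreeGroup.map iota) := by
    apply FreeGroup.ext_hom
    intro x
    simp [lsg, sg]
  exact DFunLike.congr_fun this r

theorem lsg_one {r : FreeGroup Fi22.Gen} (h : FreeGroup.map iota r ∈ RR) : lsg r = 1 := by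
  apply Subtype.ext
  rw [coe_lsg]
  exact PresentedGroup.mk_eq_one_iff.2 (Subgroup.subset_normalClosure h)

theorem lab (x y : Fi22.Gen) : coxLabel Fi23.edges (iota x) (iota y) = coxLabel Fi22.edges x y := by
  cases x <;> cases y <;> decide

theorem node (x : Fi22.Gen) : iota x ∈ coxNodes Fi23.edges := by
  cases x <;> decide

theorem cox_one {x y : Fi22.Gen} : lsg ((FreeGroup.of x * FreeGroup.of y) ^ coxLabel Fi22.edges x y) = 1 := by
  apply lsg_one
  left
  refine ⟨iota x, node x, iota y, node y, ?_⟩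
  rw [lab, map_pow, map_mul, FreeGroup.map.of, FreeGroup.map.of]

theorem cox_sg (x y : Fi22.Gen) : (sg x * sg y) ^ coxLabel Fi22.edges x y = 1 := by
  have h := cox_one (x := x) (y := y)
  rw [map_pow, map_mul] at h
  simpa [lsg] using h

/-- The central element. -/
noncomputable def zH : HH := (sg .b * sg .c * sg .d * sg .e * sg .f * sg .g * sg .h) ^ 9

theorem coe_zH : (zH : PresentedGroup RR) = ev ell wz := by
  have h1 : ∀ x : Fi23.Gen, lt RR Cfsg.Agent.S1689.gs 10 (Cfsg.Agent.S1689.code (x, true))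
      = PresentedGroup.mk RR (FreeGroup.of x) := fun x => Cfsg.Agent.S1689.base.hcode (x, true)
  have e : ev ell [1,2,3,4,5,6,8] = ((sg .b * sg .c * sg .d * sg .e * sg .f * sg .g * sg .h : HH) : PresentedGroup RR) := by
    have h2 := h1 .b
    have h3 := h1 .c
    have h4 := h1 .d
    have h5 := h1 .e
    have h6 := h1 .f
    have h7 := h1 .g
    have h8 := h1 .h
    simp only [ev, Subgroup.coe_mul, mul_one, mul_assoc]
    exact congrArg₂ _ h2 (congrArg₂ _ h3 (congrArg₂ _ h4 (congrArg₂ _ h5 (congrArg₂ _ h6 (congrArg₂ _ h7 h8)))))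
  show ((((sg .b * sg .c * sg .d * sg .e * sg .f * sg .g * sg .h) ^ 9 : HH)) : PresentedGroup RR) = ev ell (List.replicate 9 [1,2,3,4,5,6,8]).flatten
  rw [ev_flatten, e, Subgroup.coe_pow]

theorem ell_sg (x : Fi22.Gen) (a : ℕ) (h : Cfsg.Agent.S1689.code (iota x, true) = a) :
    ell a = (sg x : PresentedGroup RR) := by
  subst h
  exact Cfsg.Agent.S1689.base.hcode (iota x, true)


section Final

variable (hG : IsSimpleGroup (PresentedGroup RR))

include hG

theorem zH_sq : zH * zH = 1 := by
  apply Subtype.ext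
  rw [Subgroup.coe_mul, coe_zH]
  exact (core hG).1

theorem zH_ne : zH ≠ 1 := by
  intro h
  apply (core hG).2.1
  rw [← coe_zH, h]
  rfl

theorem zH_comm_sg (x : Fi22.Gen) : zH * sg x = sg x * zH := by
  apply Subtype.ext
  rw [Subgroup.coe_mul, Subgroup.coe_mul, coe_zH]
  have key : ∀ a ∈ [0,1,2,3,4,5,6,8,9], Cfsg.Agent.S1689.code (iota x, true) = a → 
      ev ell wz * (sg x : PresentedGroup RR) = (sg x : PresentedGroup RR) * ev ell wz := by
    intro a ha h
    rw [← ell_sg x a h]
    exact (core hG).2.2.1 a ha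
  cases x
  · exact key 0 (by decide) rfl
  · exact key 1 (by decide) rfl
  · exact key 2 (by decide) rfl
  · exact key 3 (by decide) rfl
  · exact key 4 (by decide) rfl
  · exact key 5 (by decide) rfl
  · exact key 6 (by decide) rfl
  · exact key 8 (by decide) rfl
  · exact key 9 (by decide) rfl

omit hG in
/-- All of `H` is a word in the generators. -/
theorem lsg_surj (h : HH) : ∃ r, lsg r = h := by
  obtain ⟨g, y, hy, rfl⟩ := h
  have key : ∀ y ∈ Subgroup.closure SS, ∃ r, ((lsg r : HH) : PresentedGroup RR) = PresentedGroup.mk RR y := by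
    intro y hy
    induction hy using Subgroup.closure_induction with
    | mem s hs =>
      have : ∃ x, s = FreeGroup.of (iota x) := by
        simp only [Set.mem_insert_iff, Set.mem_singleton_iff] at hs
        rcases hs with rfl | rfl | rfl | rfl | rfl | rfl | rfl | rfl | rfl
        · exact ⟨.a, rfl⟩
        · exact ⟨.b, rfl⟩
        · exact ⟨.c, rfl⟩
        · exact ⟨.d, rfl⟩
        · exact ⟨.e, rfl⟩
        · exact ⟨.f, rfl⟩
        · exact ⟨.g, rfl⟩
        · exact ⟨.h, rfl⟩
        · exact ⟨.i, rfl⟩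
      obtain ⟨x, rfl⟩ := this
      refine ⟨FreeGroup.of x, ?_⟩
      rw [coe_lsg, FreeGroup.map.of]
    | one =>
      exact ⟨1, by rw [map_one, map_one]; rfl⟩
    | mul a b _ _ ha hb =>
      obtain ⟨r, hr⟩ := ha
      obtain ⟨r', hr'⟩ := hb
      refine ⟨r * r', ?_⟩
      rw [map_mul, map_mul, Subgroup.coe_mul, hr, hr']
    | inv a _ ha =>
      obtain ⟨r, hr⟩ := ha
      refine ⟨r⁻¹, ?_⟩
      rw [map_inv, map_inv, Subgroup.coe_inv, hr]
  obtain ⟨r, hr⟩ := key y hy
  exact ⟨r, Subtype.ext hr⟩

theorem zH_central (x : HH) : x * zH = zH * x := by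
  obtain ⟨r, rfl⟩ := lsg_surj x
  induction r using FreeGroup.induction_on with
  | C1 => rw [map_one, one_mul, mul_one]
  | of y =>
    have e : lsg (FreeGroup.of y) = sg y := by simp [lsg]
    show lsg (FreeGroup.of y) * zH = zH * lsg (FreeGroup.of y)
    rw [e]
    exact (zH_comm_sg hG y).symm
  | inv_of y ih =>
    rw [map_inv]
    exact Commute.inv_left ih
  | mul a b ha hb =>
    rw [map_mul, mul_assoc, hb, ← mul_assoc, ha, mul_assoc]

theorem zH_normal : (zpowers zH).Normal := by
  constructor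
  intro n hn g
  obtain ⟨k, rfl⟩ := hn
  refine ⟨k, ?_⟩
  simp only
  have hc : Commute g (zH ^ k) := by
    have : Commute g zH := zH_central hG g
    exact this.zpow_right k
  rw [hc.eq, mul_assoc, mul_inv_cancel, mul_one]

end Final

/-- The relators of `Fi22` in `H`. -/
theorem rel_in (r : FreeGroup Fi22.Gen)
    (hr : r ∈ coxRelators Fi22.edges ∪ {r | r ∈ Fi22.extra}) : lsg r ∈ zpowers zH := by
  rcases hr with ⟨x, -, y, -, rfl⟩ | hr
  · rw [cox_one]
    exact Subgroup.one_mem _
  · simp only [Fi22.extra, List.mem_cons, List.not_mem_nil, or_false, Set.mem_setOf_eq] at hr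
    rcases hr with rfl | rfl | rfl
    · rw [lsg_one]
      · exact Subgroup.one_mem _
      · right
        have : FreeGroup.map iota ((Fi22.d * Fi22.c * Fi22.b * Fi22.d * Fi22.e * Fi22.f * Fi22.d * Fi22.h * Fi22.i) ^ 10)
            = (Fi23.d * Fi23.c * Fi23.b * Fi23.d * Fi23.e * Fi23.f * Fi23.d * Fi23.h * Fi23.i) ^ 10 := by
          simp [iota]
        rw [this]
        simp [Fi23.extra]
    · rw [lsg_one]
      · exact Subgroup.one_mem _
      · right
        have : FreeGroup.map iota ((Fi22.a * Fi22.b * Fi22.c * Fi22.d * Fi22.e * Fi22.f * Fi22.h) ^ 9)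
            = (Fi23.a * Fi23.b * Fi23.c * Fi23.d * Fi23.e * Fi23.f * Fi23.h) ^ 9 := by
          simp [iota]
        rw [this]
        simp [Fi23.extra]
    · have : lsg ((Fi22.b * Fi22.c * Fi22.d * Fi22.e * Fi22.f * Fi22.g * Fi22.h) ^ 9) = zH := by
        simp [lsg, zH]
      rw [this]
      exact Subgroup.mem_zpowers _

section Final2

variable (hG : IsSimpleGroup (PresentedGroup RR)) (hK : Cfsg.IsFi22 Fi22)

include hG

theorem exists_phi : ∃ (_ : (zpowers zH).Normal) (φ : Fi22 →* HH ⧸ zpowers zH), Function.Surjective φ := by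
  haveI hN := zH_normal hG
  refine ⟨hN, ?_⟩
  let f : Fi22.Gen → HH ⧸ zpowers zH := fun x => QuotientGroup.mk (sg x)
  have e : ∀ r, FreeGroup.lift f r = QuotientGroup.mk (lsg r) := by
    intro r
    have : FreeGroup.lift f = (QuotientGroup.mk' (zpowers zH)).comp lsg := by
      apply FreeGroup.ext_hom
      intro x
      simp [f, lsg]
    rw [this]
    rfl
  have hf : ∀ r ∈ coxRelators Fi22.edges ∪ {r | r ∈ Fi22.extra}, FreeGroup.lift f r = 1 := by
    intro r hr
    rw [e]
    exact (QuotientGroup.eq_one_iff _).2 (rel_in r hr)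
  refine ⟨PresentedGroup.toGroup hf, ?_⟩
  intro q
  obtain ⟨h, rfl⟩ := QuotientGroup.mk_surjective q
  obtain ⟨r, rfl⟩ := lsg_surj h
  refine ⟨PresentedGroup.mk _ r, ?_⟩
  exact e r

include hK

theorem center_Fi22 : Subgroup.center Fi22 = ⊥ := by
  haveI := hK.1
  rcases (Subgroup.center Fi22).normal_of_characteristic.eq_bot_or_eq_top with h | h
  · exact h
  · exfalso
    haveI : IsMulCommutative Fi22 := ⟨⟨fun a b => by
      have h1 : a ∈ Subgroup.center Fi22 := by rw [h]; trivial
      exact ((Subgroup.mem_center_iff.1 h1) b).symm⟩⟩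
    have := (Group.is_simple_iff_prime_card (α := Fi22)).1 hK.1
    rw [hK.2] at this
    norm_num at this

theorem cover_main : Cfsg.IsNonsplitDoubleCover HH Fi22 := by
  obtain ⟨hN, φ, hφ⟩ := exists_phi hG
  haveI := hK.1
  have hnt : ∃ x : HH, x ∉ zpowers zH := by
    refine ⟨sg .a, ?_⟩
    intro h
    rw [Subgroup.mem_zpowers_iff] at h
    obtain ⟨k, hk⟩ := h
    have h2 : zH * zH = 1 := zH_sq hG
    have h3 : sg .a = 1 ∨ sg .a = zH := by
      have h4 : ∀ k : ℤ, zH ^ k = 1 ∨ zH ^ k = zH := by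
        intro k
        have h5 : orderOf zH ∣ 2 := orderOf_dvd_of_pow_eq_one (by rw [pow_two, h2])
        rcases Int.even_or_odd' k with ⟨m, rfl | rfl⟩
        · left
          rw [zpow_mul, zpow_two, h2, one_zpow]
        · right
          rw [zpow_add, zpow_mul, zpow_two, h2, one_zpow, one_mul, zpow_one]
      rw [← hk]
      exact h4 k
    have h6 : ell 0 = (sg .a : PresentedGroup RR) := ell_sg .a 0 rfl
    rcases h3 with h3 | h3
    · apply (core hG).2.2.2.2
      rw [h6, h3]
      rfl
    · apply (core hG).2.2.2.1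
      rw [h6, h3, coe_zH]
  obtain ⟨hcard, hiso, hcen⟩ := Cfsg.Agent.H16.DoubleCover.center_of_quot (center_Fi22 hG hK) zH (zH_ne hG) (zH_sq hG) (zH_central hG) φ hφ hnt
  refine ⟨hcard, hiso, ?_⟩
  intro L hc
  have hL : L.index = 2 := by rw [hc.index_eq_card, hcard]
  haveI hLn : L.Normal := Subgroup.normal_of_index_eq_two hL
  have hzL : zH ∉ L := by
    intro h
    have h1 : zH ∈ Subgroup.center HH := by rw [hcen]; exact Subgroup.mem_zpowers _
    have := hc.disjoint
    exact zH_ne hG ((Subgroup.disjoint_def.1 this) h1 h)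
  have hinv : ∀ x, sg x * sg x = 1 := by
    intro x
    have h := cox_sg x x
    have e : coxLabel Fi22.edges x x = 1 := if_pos rfl
    rwa [e, pow_one] at h
  have conj : ∀ x y, coxLabel Fi22.edges x y = 3 → (sg x ∈ L ↔ sg y ∈ L) := by
    intro x y h
    have h1 := cox_sg x y
    have h2 := cox_sg y x
    rw [h] at h1
    have e : coxLabel Fi22.edges y x = 3 := by
      cases x <;> cases y <;> first | rfl | exact absurd h (by decide)
    rw [e] at h2
    exact ⟨Cfsg.Agent.H16.DoubleCover.conj_mem L (hinv x) (hinv y) h1,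
      Cfsg.Agent.H16.DoubleCover.conj_mem L (hinv y) (hinv x) h2⟩
  have hab := conj .a .b (by decide)
  have hbc := conj .b .c (by decide)
  have hcd := conj .c .d (by decide)
  have hde := conj .d .e (by decide)
  have hdh := conj .d .h (by decide)
  have hef := conj .e .f (by decide)
  have hfg := conj .f .g (by decide)
  have hhi := conj .h .i (by decide)
  have hb : sg .b ∉ L := by
    intro h
    have hc' := hbc.1 h
    have hd := hcd.1 hc'
    have he := hde.1 hd
    have hf := hef.1 he
    have hg := hfg.1 hf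
    have hh := hdh.1 hd
    apply hzL
    exact L.pow_mem (L.mul_mem (L.mul_mem (L.mul_mem (L.mul_mem (L.mul_mem (L.mul_mem h hc') hd) he) hf) hg) hh) 9
  have ha : sg .a ∉ L := fun h => hb (hab.1 h)
  have hc' : sg .c ∉ L := fun h => hb (hbc.2 h)
  have hd : sg .d ∉ L := fun h => hc' (hcd.2 h)
  have he : sg .e ∉ L := fun h => hd (hde.2 h)
  have hf : sg .f ∉ L := fun h => he (hef.2 h)
  have hh : sg .h ∉ L := fun h => hd (hdh.2 h)
  have hmul := fun a b => Subgroup.mul_mem_iff_of_index_two (a := a) (b := b) hL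
  set u := sg .a * sg .b * sg .c * sg .d * sg .e * sg .f * sg .h with hu
  have hu1 : u ∉ L := by
    rw [hu]
    simp only [hmul, ha, hb, hc', hd, he, hf, hh]
    simp
  have hu9 : u ^ 9 = 1 := by
    have h1 : lsg ((Fi22.a * Fi22.b * Fi22.c * Fi22.d * Fi22.e * Fi22.f * Fi22.h) ^ 9) = 1 := by
      apply lsg_one
      right
      have : FreeGroup.map iota ((Fi22.a * Fi22.b * Fi22.c * Fi22.d * Fi22.e * Fi22.f * Fi22.h) ^ 9)
          = (Fi23.a * Fi23.b * Fi23.c * Fi23.d * Fi23.e * Fi23.f * Fi23.h) ^ 9 := by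
        simp [iota]
      rw [this]
      simp [Fi23.extra]
    have h2 : lsg ((Fi22.a * Fi22.b * Fi22.c * Fi22.d * Fi22.e * Fi22.f * Fi22.h) ^ 9) = u ^ 9 := by
      simp [lsg, hu]
    rw [← h2, h1]
  have h8 : u ^ 8 ∈ L := by
    have : u ^ 8 = (u * u) ^ 4 := by rw [← pow_two, ← pow_mul]
    rw [this]
    apply L.pow_mem
    exact (hmul u u).2 Iff.rfl
  have h9 : u ^ 9 ∉ L := by
    rw [pow_succ, hmul]
    intro h
    exact hu1 (h.1 h8)
  rw [hu9] at h9
  exact h9 L.one_mem

end Final2

end Cfsg.Agent.H16.F23Cover
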