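import Mathlib

/-!
Rédei's method: a function on `𝔽_p` whose difference quotients take at most `p / 2` values is affine.
-/

set_option autoImplicit false
set_option linter.style.haveILetI false

namespace Cfsg.Agent.H16

open Polynomial

section

variable {K : Type*} [Field K]

/-- coefficient degree bound for a product of linear polynomials with linear constant terms -/
theorem coeff_prod_natDegree {ι : Type*} [DecidableEq ι] (s : Finset ι) (r : ι → K[X])
    (hr : ∀ i ∈ s, (r i).natDegree ≤ 1) :
    ∀ k : ℕ, ((∏ i ∈ s, ((X : K[X][X]) - C (r i))).coeff k).natDegree ≤ s.card - k ∧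
      (s.card < k → (∏ i ∈ s, ((X : K[X][X]) - C (r i))).coeff k = 0) := by
  induction s using Finset.induction_on with
  | empty =>
    intro k
    simp only [Finset.prod_empty, Finset.card_empty]
    constructor
    · rw [coeff_one]
      split_ifs <;> simp
    · intro hk
      rw [coeff_one, if_neg (by omega)]
  | insert a s ha ih =>
    intro k
    have hra : (r a).natDegree ≤ 1 := hr a (Finset.mem_insert_self _ _)
    have ih' := ih (fun i hi => hr i (Finset.mem_insert_of_mem hi))
    rw [Finset.prod_insert ha, Finset.card_insert_of_notMem ha, sub_mul]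
    set Q := ∏ i ∈ s, ((X : K[X][X]) - C (r i))
    cases k with
    | zero =>
      simp only [coeff_sub, coeff_X_mul_zero, coeff_C_mul, zero_sub, natDegree_neg]
      constructor
      · calc natDegree (r a * Q.coeff 0) ≤ natDegree (r a) + natDegree (Q.coeff 0) := natDegree_mul_le
          _ ≤ 1 + (s.card - 0) := add_le_add hra (ih' 0).1
          _ = s.card + 1 - 0 := by omega
      · intro h
        omega
    | succ k =>
      rw [coeff_sub, coeff_X_mul, coeff_C_mul]
      constructor
      · refine (natDegree_sub_le _ _).trans (max_le ?_ ?_)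
        · have := (ih' k).1
          omega
        · by_cases hk : s.card < k + 1
          · rw [(ih' (k + 1)).2 hk, mul_zero]
            simp
          · calc natDegree (r a * Q.coeff (k + 1)) ≤ natDegree (r a) + natDegree (Q.coeff (k + 1)) :=
                  natDegree_mul_le
              _ ≤ 1 + (s.card - (k + 1)) := add_le_add hra (ih' (k + 1)).1
              _ ≤ s.card + 1 - (k + 1) := by omega
      · intro h
        rw [(ih' k).2 (by omega), (ih' (k + 1)).2 (by omega)]
        simp

end

variable {p : ℕ} [hp : Fact p.Prime]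

theorem prod_X_sub_C_zmod : ∏ a : ZMod p, ((X : (ZMod p)[X]) - C a) = X ^ p - X := by
  have hmon : (X ^ p - X : (ZMod p)[X]).Monic :=
    monic_X_pow_sub (n := p) (p := X) (by rw [degree_X]; exact_mod_cast hp.out.one_lt)
  have hroots := FiniteField.roots_X_pow_card_sub_X (ZMod p)
  rw [ZMod.card] at hroots
  have hdeg : (X ^ p - X : (ZMod p)[X]).natDegree = p :=
    FiniteField.X_pow_card_sub_X_natDegree_eq _ hp.out.one_lt
  have h := prod_multiset_X_sub_C_of_monic_of_roots_card_eq hmon (by
    rw [hroots, hdeg]
    simp [ZMod.card])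
  rw [hroots] at h
  simpa using h

/-- The lacunary argument. -/
theorem lacunary (c : ZMod p → ZMod p) (N : ℕ) (hN : 1 ≤ N) (h2N : 2 * N ≤ p)
    (hg : (∏ a, ((X : (ZMod p)[X]) - C (c a)) - X ^ p).natDegree ≤ N)
    (hc : ¬ Function.Injective c) : ∀ a b, c a = c b := by
  classical
  have hpp : p.Prime := hp.out
  set P := ∏ a, ((X : (ZMod p)[X]) - C (c a)) with hP
  set g := P - X ^ p with hgdef
  have hPg : P = X ^ p + g := by rw [hgdef]; ring
  let S : Finset (ZMod p) := Finset.univ.image c
  let m : ZMod p → ℕ := fun v => (Finset.univ.filter (fun a => c a = v)).card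
  have hprod : P = ∏ v ∈ S, ((X : (ZMod p)[X]) - C v) ^ m v := by
    rw [hP, ← Finset.prod_fiberwise_of_maps_to (t := S) (g := c)
      (fun a _ => Finset.mem_image_of_mem c (Finset.mem_univ a))]
    apply Finset.prod_congr rfl
    intro v _
    have : ∀ a ∈ Finset.univ.filter (fun a => c a = v), ((X : (ZMod p)[X]) - C (c a)) = X - C v := by
      intro a ha
      rw [(Finset.mem_filter.1 ha).2]
    rw [Finset.prod_congr rfl this, Finset.prod_const]
  have hsum : ∑ v ∈ S, m v = p := by
    have := Finset.card_eq_sum_card_fiberwise (f := c) (s := Finset.univ) (t := S)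
      (fun a _ => Finset.mem_image_of_mem c (Finset.mem_univ a))
    rw [Finset.card_univ, ZMod.card] at this
    exact this.symm
  have hpos : ∀ v ∈ S, 1 ≤ m v := by
    intro v hv
    obtain ⟨a, _, rfl⟩ := Finset.mem_image.1 hv
    exact Finset.card_pos.2 ⟨a, Finset.mem_filter.2 ⟨Finset.mem_univ a, rfl⟩⟩
  have hroot : ∀ v ∈ S, (g + X).eval v = 0 := by
    intro v hv
    obtain ⟨a, _, rfl⟩ := Finset.mem_image.1 hv
    have h0 : P.eval (c a) = 0 := by
      rw [hP, eval_prod]
      exact Finset.prod_eq_zero (Finset.mem_univ a) (by simp)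
    rw [hPg, eval_add, eval_pow, eval_X, ZMod.pow_card] at h0
    rw [eval_add, eval_X]
    linear_combination h0
  have hgX : g + X ≠ 0 := by
    intro h0
    apply hc
    have hP' : P = X ^ p - X := by
      rw [hPg]
      linear_combination h0
    have hsurj : Function.Surjective c := by
      intro v
      have h1 : P.eval v = 0 := by
        rw [hP', eval_sub, eval_pow, eval_X, ZMod.pow_card, sub_self]
      rw [hP, eval_prod, Finset.prod_eq_zero_iff] at h1
      obtain ⟨a, _, ha⟩ := h1
      refine ⟨a, ?_⟩
      rw [eval_sub, eval_X, eval_C, sub_eq_zero] at ha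
      exact ha.symm
    exact Finite.injective_iff_surjective.2 hsurj
  have hcardS : S.card ≤ N := by
    have hdeg : (g + X).natDegree ≤ N :=
      (natDegree_add_le _ _).trans (max_le hg (by rw [natDegree_X]; exact hN))
    by_contra hlt
    push Not at hlt
    exact hgX (eq_zero_of_natDegree_lt_card_of_eval_eq_zero' _ S hroot (by omega))
  have hder : derivative P = derivative g := by
    rw [hPg, derivative_add, derivative_X_pow]
    simp
  have hg' : derivative g = 0 := by
    by_contra hne
    have hdvd : ∏ v ∈ S, ((X : (ZMod p)[X]) - C v) ^ (m v - 1) ∣ derivative g := by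
      apply Finset.prod_dvd_of_coprime
      · intro v _ w _ hvw
        exact IsCoprime.pow (pairwise_coprime_X_sub_C (s := fun x : ZMod p => x) Function.injective_id hvw)
      · intro v hv
        rw [← hder]
        apply pow_sub_one_dvd_derivative_of_pow_dvd
        rw [hprod]
        exact Finset.dvd_prod_of_mem (fun v => ((X : (ZMod p)[X]) - C v) ^ m v) hv
    have hdeg := natDegree_le_of_dvd hdvd hne
    have hdeg2 : (∏ v ∈ S, ((X : (ZMod p)[X]) - C v) ^ (m v - 1)).natDegree = ∑ v ∈ S, (m v - 1) := by
      rw [natDegree_prod_of_monic _ _ (fun v _ => (monic_X_sub_C v).pow _)]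
      apply Finset.sum_congr rfl
      intro v _
      rw [natDegree_pow, natDegree_X_sub_C, mul_one]
    have hsum2 : ∑ v ∈ S, (m v - 1) + S.card = ∑ v ∈ S, m v := by
      rw [Finset.card_eq_sum_ones, ← Finset.sum_add_distrib]
      apply Finset.sum_congr rfl
      intro v hv
      have := hpos v hv
      omega
    have hdegd : (derivative g).natDegree ≤ g.natDegree - 1 := natDegree_derivative_le g
    omega
  have hgc : g.natDegree = 0 := by
    by_contra hne
    have hd : g.natDegree < p := by omega
    obtain ⟨n, hn⟩ := Nat.exists_eq_succ_of_ne_zero hne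
    have h1 := congrArg (fun q => coeff q n) hg'
    simp only [coeff_derivative, coeff_zero] at h1
    have h2 : g.coeff (n + 1) ≠ 0 := by
      have : g.coeff g.natDegree ≠ 0 := by
        rw [coeff_natDegree, Ne, leadingCoeff_eq_zero]
        intro h0
        rw [h0, natDegree_zero] at hne
        exact hne rfl
      rwa [hn] at this
    have h3 : ((n : ZMod p) + 1) ≠ 0 := by
      intro h0
      have h4 : ((n + 1 : ℕ) : ZMod p) = 0 := by push_cast; exact h0
      rw [ZMod.natCast_eq_zero_iff] at h4
      have := Nat.le_of_dvd (by omega) h4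
      omega
    exact (mul_ne_zero h2 h3) h1
  have hconst : g = C (g.coeff 0) := eq_C_of_natDegree_eq_zero hgc
  set e := g.coeff 0
  have hall : ∀ a, c a = -e := by
    intro a
    have h0 : P.eval (c a) = 0 := by
      rw [hP, eval_prod]
      exact Finset.prod_eq_zero (Finset.mem_univ a) (by simp)
    rw [hPg, hconst, eval_add, eval_pow, eval_X, ZMod.pow_card, eval_C] at h0
    linear_combination h0
  intro a b
  rw [hall a, hall b]

/-- A function on `𝔽_p` with at most `p / 2` difference quotients is affine. -/
theorem affine_of_few_slopes (f : ZMod p → ZMod p) (D : Finset (ZMod p))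
    (hD : ∀ x y, x ≠ y → (f y - f x) / (y - x) ∈ D) (h2 : 2 * D.card ≤ p) :
    ∃ a b, ∀ x, f x = a * x + b := by
  classical
  have hpp : p.Prime := hp.out
  set N := D.card with hNdef
  have h01 : (0 : ZMod p) ≠ 1 := zero_ne_one
  have hy₀ := hD 0 1 h01
  set y₀ := (f 1 - f 0) / (1 - 0) with hy₀def
  have hN : 1 ≤ N := Finset.card_pos.2 ⟨y₀, hy₀⟩
  let Q : (ZMod p)[X][X] := ∏ a : ZMod p, ((X : (ZMod p)[X][X]) - C (C (f a) - X * C a))
  have hQdeg := coeff_prod_natDegree (K := ZMod p) (Finset.univ : Finset (ZMod p))
    (fun a => C (f a) - X * C a) (by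
      intro a _
      refine (natDegree_sub_le _ _).trans (max_le ?_ ?_)
      · simp
      · exact natDegree_mul_le.trans (by simp))
  rw [Finset.card_univ, ZMod.card] at hQdeg
  let P : ZMod p → (ZMod p)[X] := fun y => ∏ a : ZMod p, ((X : (ZMod p)[X]) - C (f a - y * a))
  have hQP : ∀ y k, (P y).coeff k = (Q.coeff k).eval y := by
    intro y k
    have h1 : Q.map (evalRingHom y) = P y := by
      simp only [Q, P, Polynomial.map_prod, Polynomial.map_sub, map_X, map_C]
      apply Finset.prod_congr rfl
      intro a _
      rw [show (evalRingHom y) (C (f a) - X * C a) = f a - y * a by simp; exact mul_comm _ _]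
    rw [← h1, coeff_map]
    rfl
  have hPgood : ∀ y, y ∉ D → P y = X ^ p - X := by
    intro y hy
    have hinj : Function.Injective (fun a : ZMod p => f a - y * a) := by
      intro a b hab
      by_contra hne
      apply hy
      have h1 := hD a b hne
      have h2 : (f b - f a) / (b - a) = y := by
        have hba : b - a ≠ 0 := sub_ne_zero.2 (Ne.symm hne)
        rw [div_eq_iff hba]
        have hab' : f a - y * a = f b - y * b := hab
        linear_combination -hab'
      rwa [h2] at h1
    have hbij : Function.Bijective (fun a : ZMod p => f a - y * a) :=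
      Finite.injective_iff_bijective.1 hinj
    rw [← prod_X_sub_C_zmod]
    exact hbij.prod_comp (fun v => (X : (ZMod p)[X]) - C v)
  have hvanish : ∀ k, N < k → k < p → Q.coeff k = 0 := by
    intro k hk1 hk2
    apply eq_zero_of_natDegree_lt_card_of_eval_eq_zero' _ (Finset.univ \ D)
    · intro y hy
      have hyD : y ∉ D := (Finset.mem_sdiff.1 hy).2
      rw [← hQP, hPgood y hyD, coeff_sub, coeff_X_pow, coeff_X, if_neg (by omega), if_neg (by omega)]
      simp
    · have h1 : (Q.coeff k).natDegree ≤ p - k := (hQdeg k).1
      rw [Finset.card_sdiff_of_subset (Finset.subset_univ D), Finset.card_univ, ZMod.card]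
      have h3 : N = D.card := hNdef
      omega
  have hPmon : ∀ y, (P y).Monic := fun y => monic_prod_of_monic _ _ (fun a _ => monic_X_sub_C _)
  have hPdeg : ∀ y, (P y).natDegree = p := by
    intro y
    change (∏ a : ZMod p, ((X : (ZMod p)[X]) - C (f a - y * a))).natDegree = p
    rw [natDegree_prod_of_monic _ _ (fun a _ => monic_X_sub_C _),
      Finset.sum_congr rfl (fun a _ => natDegree_X_sub_C _)]
    simp [ZMod.card]
  have hlow : ∀ y, (P y - X ^ p).natDegree ≤ N := by
    intro y
    rw [natDegree_le_iff_coeff_eq_zero]
    intro k hk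
    rw [coeff_sub, coeff_X_pow]
    rcases lt_trichotomy k p with h | h | h
    · rw [hQP, hvanish k hk h, if_neg (by omega)]
      simp
    · subst h
      have h3 : (P y).coeff k = 1 := by
        have := (hPmon y).coeff_natDegree
        rwa [hPdeg] at this
      rw [h3, if_pos rfl, sub_self]
    · rw [coeff_eq_zero_of_natDegree_lt (by rw [hPdeg]; exact h), if_neg (by omega), sub_self]
  let c : ZMod p → ZMod p := fun a => f a - y₀ * a
  have hcni : ¬ Function.Injective c := by
    intro hinj
    apply h01
    apply hinj
    simp only [c, mul_zero, sub_zero, mul_one]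
    rw [hy₀def]
    simp
  have hall := lacunary c N hN (by omega) (hlow y₀) hcni
  refine ⟨y₀, f 0, fun x => ?_⟩
  have := hall x 0
  simp only [c, mul_zero, sub_zero] at this
  rw [← this]
  ring

end Cfsg.Agent.H16
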