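import Mathlib

/-!
Groups `N ⋊ H` where all `H`-conjugation orbits on `N \ {1}` have the same size and `H` does not
act semiregularly: `N` is elementary abelian and has no proper `H`-invariant subgroup.
-/

set_option autoImplicit false
set_option linter.style.haveILetI false
set_option warn.classDefReducibility false
set_option linter.unusedSectionVars false

namespace Cfsg.Agent.H16.ThreeHalf

open MulAction

theorem dvd_card_of_uniform {J X : Type*} [Group J] [MulAction J X] [Finite X] (d : ℕ)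
    (h : ∀ x : X, Nat.card (orbit J x) = d) : d ∣ Nat.card X := by
  classical
  haveI := Fintype.ofFinite (orbitRel.Quotient J X)
  rw [Nat.card_congr (selfEquivSigmaOrbits J X), Nat.card_sigma]
  apply Finset.dvd_sum
  intro ω _
  rw [h]

variable {G : Type*} [Group G] [Finite G]

/-- Centraliser in `H`. -/
def CH (H : Subgroup G) (x : G) : Subgroup G := H ⊓ Subgroup.centralizer {x}

theorem mem_CH {H : Subgroup G} {x h : G} : h ∈ CH H x ↔ h ∈ H ∧ h * x = x * h := by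
  unfold CH
  rw [Subgroup.mem_inf, Subgroup.mem_centralizer_singleton_iff]

/-- Conjugation action on an invariant subset. -/
def conjAction (J : Subgroup G) (A : Set G) (h : ∀ j ∈ J, ∀ a ∈ A, j * a * j⁻¹ ∈ A) :
    MulAction J A where
  smul j a := ⟨(j : G) * a * (j : G)⁻¹, h j j.2 a a.2⟩
  one_smul a := by
    apply Subtype.ext
    show ((1 : J) : G) * (a : G) * ((1 : J) : G)⁻¹ = a
    simp
  mul_smul j k a := by
    apply Subtype.ext
    show ((j * k : J) : G) * (a : G) * ((j * k : J) : G)⁻¹ =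
      (j : G) * ((k : G) * a * (k : G)⁻¹) * (j : G)⁻¹
    simp only [Subgroup.coe_mul]
    group

theorem orbit_card_conj (J : Subgroup G) (A : Set G) (h : ∀ j ∈ J, ∀ a ∈ A, j * a * j⁻¹ ∈ A) (a : A) :
    letI := conjAction J A h
    Nat.card (orbit J a) * Nat.card (CH J (a : G)) = Nat.card J := by
  letI := conjAction J A h
  have h1 : (stabilizer J a).map J.subtype = CH J (a : G) := by
    ext x
    rw [mem_CH]
    constructor
    · rintro ⟨j, hj, rfl⟩
      refine ⟨j.2, ?_⟩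
      have h2 : j • a = a := hj
      have h3 : (j : G) * a * (j : G)⁻¹ = a := congrArg Subtype.val h2
      show (j : G) * a = a * j
      calc (j : G) * a = ((j : G) * a * (j : G)⁻¹) * j := by group
        _ = a * j := by rw [h3]
    · rintro ⟨hx, hc⟩
      refine ⟨⟨x, hx⟩, ?_, rfl⟩
      show (⟨x, hx⟩ : J) • a = a
      apply Subtype.ext
      show x * (a : G) * x⁻¹ = a
      rw [hc]
      group
  rw [← h1, Subgroup.card_map_of_injective J.subtype_injective]
  have h2 := index_stabilizer J a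
  rw [Nat.card_coe_set_eq, ← h2, mul_comm]
  exact (stabilizer J a).card_mul_index

/-- Uniform orbits: `|J| = m d` and `d ∣ |A|`. -/
theorem uniform_dvd (J : Subgroup G) (A : Set G) (h : ∀ j ∈ J, ∀ a ∈ A, j * a * j⁻¹ ∈ A) {m : ℕ}
    (hm0 : 0 < m) (hA : A.Nonempty) (hm : ∀ a ∈ A, Nat.card (CH J a) = m) :
    ∃ d, Nat.card J = m * d ∧ d ∣ Nat.card A := by
  letI := conjAction J A h
  obtain ⟨a₀, ha₀⟩ := hA
  have h0 := orbit_card_conj J A h ⟨a₀, ha₀⟩
  rw [hm a₀ ha₀, mul_comm] at h0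
  refine ⟨Nat.card (orbit J (⟨a₀, ha₀⟩ : A)), h0.symm, ?_⟩
  apply dvd_card_of_uniform (J := J)
  intro x
  have h1 := orbit_card_conj J A h x
  rw [hm x x.2, mul_comm] at h1
  apply Nat.eq_of_mul_eq_mul_left hm0
  rw [h1, h0]

section Core

variable (N H : Subgroup G) [hN : N.Normal] {m s : ℕ}

/-- The set stabiliser in `H`. -/
def setStab (H : Subgroup G) (A : Set G) : Subgroup G where
  carrier := {h | h ∈ H ∧ ∀ a, h * a * h⁻¹ ∈ A ↔ a ∈ A}
  one_mem' := ⟨H.one_mem, fun a => by simp⟩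
  mul_mem' := by
    rintro x y ⟨hx, hx'⟩ ⟨hy, hy'⟩
    refine ⟨H.mul_mem hx hy, fun a => ?_⟩
    have e : x * y * a * (x * y)⁻¹ = x * (y * a * y⁻¹) * x⁻¹ := by group
    rw [e, hx', hy']
  inv_mem' := by
    rintro x ⟨hx, hx'⟩
    refine ⟨H.inv_mem hx, fun a => ?_⟩
    have e := hx' (x⁻¹ * a * x⁻¹⁻¹)
    have e2 : x * (x⁻¹ * a * x⁻¹⁻¹) * x⁻¹ = a := by group
    rw [e2] at e
    exact e.symm

/-- The main counting trick. -/
theorem trick (hHm : Nat.card H = m * s) (hm0 : 0 < m) (A : Set G) (hA : A.Nonempty)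
    (hm : ∀ a ∈ A, Nat.card (CH H a) = m) (hcop : Nat.Coprime (Nat.card A) s)
    (hinv : ∀ y ∈ A, ∀ h ∈ CH H y, ∀ a ∈ A, h * a * h⁻¹ ∈ A) :
    ∀ y ∈ A, ∀ y' ∈ A, CH H y = CH H y' := by
  set J := setStab H A with hJ
  have hle : ∀ y ∈ A, CH H y ≤ J := by
    intro y hy h hh
    refine ⟨(mem_CH.1 hh).1, fun a => ⟨fun ha => ?_, fun ha => hinv y hy h hh a ha⟩⟩
    have := hinv y hy h⁻¹ ((CH H y).inv_mem hh) _ ha
    have e : h⁻¹ * (h * a * h⁻¹) * h⁻¹⁻¹ = a := by group
    rwa [e] at this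
  have hCJ : ∀ y ∈ A, CH J y = CH H y := by
    intro y hy
    apply le_antisymm
    · intro h hh
      obtain ⟨h1, h2⟩ := mem_CH.1 hh
      exact mem_CH.2 ⟨h1.1, h2⟩
    · intro h hh
      exact mem_CH.2 ⟨hle y hy hh, (mem_CH.1 hh).2⟩
  have hJinv : ∀ j ∈ J, ∀ a ∈ A, j * a * j⁻¹ ∈ A := fun j hj a ha => (hj.2 a).2 ha
  obtain ⟨d, hd1, hd2⟩ := uniform_dvd J A hJinv hm0 hA (fun a ha => by rw [hCJ a ha, hm a ha])
  have hJH : J ≤ H := fun x hx => hx.1
  have hds : d ∣ s := by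
    have h1 : Nat.card J ∣ Nat.card H := Subgroup.card_dvd_of_le hJH
    rw [hd1, hHm] at h1
    exact Nat.dvd_of_mul_dvd_mul_left hm0 h1
  have hd : d = 1 := Nat.eq_one_of_dvd_coprimes hcop hd2 hds
  subst hd
  rw [mul_one] at hd1
  have heq : ∀ y ∈ A, CH H y = J := by
    intro y hy
    apply Subgroup.eq_of_le_of_card_ge (hle y hy)
    rw [hd1, hm y hy]
  intro y hy y' hy'
  rw [heq y hy, heq y' hy']

end Core

/-- Hypotheses for the core argument. -/
structure Setup (N H : Subgroup G) (m s : ℕ) : Prop where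
  nrm : N.Normal
  card : Nat.card H = m * s
  m1 : 1 < m
  um : ∀ x ∈ N, x ≠ 1 → Nat.card (CH H x) = m
  cop : Nat.Coprime (Nat.card N) s
  faith : ∀ h ∈ H, (∀ x ∈ N, h * x = x * h) → h = 1

namespace Setup

variable {N H : Subgroup G} {m s : ℕ} (S : Setup N H m s)
include S

theorem eq_of_le {x y : G} (hx : x ∈ N) (hx1 : x ≠ 1) (hy : y ∈ N) (hy1 : y ≠ 1)
    (h : CH H x ≤ CH H y) : CH H x = CH H y := by
  apply Subgroup.eq_of_le_of_card_ge h
  rw [S.um x hx hx1, S.um y hy hy1]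

theorem conj_mem {h x : G} (hh : h ∈ H) (hx : x ∈ N) : h * x * h⁻¹ ∈ N := by
  haveI := S.nrm
  exact S.nrm.conj_mem x hx h

theorem conj_eq {x n : G} (hx : x ∈ N) (hx1 : x ≠ 1) (hn : n ∈ N) :
    CH H (n * x * n⁻¹) = CH H x := by
  have hnrm := S.nrm
  let A : Set G := {a | ∃ u ∈ N, a = u * x * u⁻¹}
  have hxA : x ∈ A := ⟨1, N.one_mem, by simp⟩
  have hNinv : ∀ j ∈ N, ∀ a ∈ A, j * a * j⁻¹ ∈ A := by
    rintro j hj _ ⟨u, hu, rfl⟩
    exact ⟨j * u, N.mul_mem hj hu, by group⟩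
  have hcard : Nat.card A ∣ Nat.card N := by
    letI := conjAction N A hNinv
    have h1 := orbit_card_conj N A hNinv ⟨x, hxA⟩
    have h2 : orbit N (⟨x, hxA⟩ : A) = Set.univ := by
      ext ⟨a, u, hu, rfl⟩
      simp only [Set.mem_univ, iff_true]
      refine ⟨⟨u, hu⟩, ?_⟩
      apply Subtype.ext
      rfl
    rw [h2, Nat.card_univ] at h1
    exact ⟨_, h1.symm⟩
  have hmem : ∀ a ∈ A, a ∈ N ∧ a ≠ 1 := by
    rintro _ ⟨u, hu, rfl⟩
    refine ⟨N.mul_mem (N.mul_mem hu hx) (N.inv_mem hu), ?_⟩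
    intro h
    apply hx1
    have : x = u⁻¹ * (u * x * u⁻¹) * u := by group
    rw [this, h]
    group
  have := trick H S.card (by have := S.m1; omega) A ⟨x, hxA⟩
    (fun a ha => S.um a (hmem a ha).1 (hmem a ha).2)
    (Nat.Coprime.coprime_dvd_left hcard S.cop)
    (by
      rintro _ ⟨u, hu, rfl⟩ h hh _ ⟨v, hv, rfl⟩
      obtain ⟨h1, h2⟩ := mem_CH.1 hh
      have h3 : h * (u * x * u⁻¹) * h⁻¹ = u * x * u⁻¹ := by
        rw [h2]
        group
      have e : h * (v * x * v⁻¹) * h⁻¹ =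
          (h * (v * u⁻¹) * h⁻¹) * (h * (u * x * u⁻¹) * h⁻¹) * (h * (v * u⁻¹) * h⁻¹)⁻¹ := by group
      rw [e, h3]
      refine ⟨(h * (v * u⁻¹) * h⁻¹) * u,
        N.mul_mem (S.conj_mem h1 (N.mul_mem hv (N.inv_mem hu))) hu, by group⟩)
  exact this _ ⟨n, hn, rfl⟩ x hxA

theorem exists_ne {x : G} (hx : x ∈ N) (hx1 : x ≠ 1) : ∃ y ∈ N, y ≠ 1 ∧ CH H y ≠ CH H x := by
  by_contra hcon
  push Not at hcon
  have h1 : CH H x = ⊥ := by
    rw [eq_bot_iff]
    intro h hh
    rw [Subgroup.mem_bot]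
    apply S.faith h (mem_CH.1 hh).1
    intro y hy
    by_cases hy1 : y = 1
    · simp [hy1]
    · have := hcon y hy hy1
      rw [← this] at hh
      exact (mem_CH.1 hh).2
  have h2 := S.um x hx hx1
  rw [h1, Subgroup.card_bot] at h2
  have := S.m1
  omega

theorem inv_mem_CH {x h : G} (hh : h ∈ CH H x) : h ∈ CH H x⁻¹ := by
  obtain ⟨h1, h2⟩ := mem_CH.1 hh
  exact mem_CH.2 ⟨h1, Commute.inv_right h2⟩

theorem comm_of_ne {x y : G} (hx : x ∈ N) (hx1 : x ≠ 1) (hy : y ∈ N) (hy1 : y ≠ 1)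
    (hne : CH H x ≠ CH H y) : x * y = y * x := by
  by_contra hcomm
  set c := x * y * x⁻¹ * y⁻¹ with hc
  have hc1 : c ≠ 1 := by
    intro h
    apply hcomm
    have h1 := mul_eq_one_iff_eq_inv.1 h
    have h2 : x * y * x⁻¹ = y := by simpa using h1
    calc x * y = x * y * x⁻¹ * x := by group
      _ = y * x := by rw [h2]
  have hcN : c ∈ N := N.mul_mem (N.mul_mem (N.mul_mem hx hy) (N.inv_mem hx)) (N.inv_mem hy)
  have hx' : x⁻¹ ∈ N := N.inv_mem hx
  have hxi : x⁻¹ ≠ 1 := inv_ne_one.2 hx1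
  have hyi : y⁻¹ ≠ 1 := inv_ne_one.2 hy1
  -- `CH x ≤ CH c`
  have h1 : CH H x ≤ CH H c := by
    intro h hh
    obtain ⟨h1, h2⟩ := mem_CH.1 hh
    have e1 : CH H (y * x⁻¹ * y⁻¹) = CH H x⁻¹ := S.conj_eq hx' hxi hy
    have e2 : CH H x⁻¹ = CH H x := S.eq_of_le hx hx1 hx' hxi (fun _ h' => S.inv_mem_CH h') |>.symm
    have h3 : h ∈ CH H (y * x⁻¹ * y⁻¹) := by rw [e1, e2]; exact hh
    obtain ⟨_, h4⟩ := mem_CH.1 h3
    refine mem_CH.2 ⟨h1, ?_⟩
    have e : c = x * (y * x⁻¹ * y⁻¹) := by rw [hc]; group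
    rw [e]
    exact Commute.mul_right h2 h4
  have h2 : CH H y ≤ CH H c := by
    intro h hh
    obtain ⟨h1, h2⟩ := mem_CH.1 hh
    have e1 : CH H (x * y * x⁻¹) = CH H y := S.conj_eq hy hy1 hx
    have h3 : h ∈ CH H (x * y * x⁻¹) := by rw [e1]; exact hh
    obtain ⟨_, h4⟩ := mem_CH.1 h3
    have h5 := mem_CH.1 (S.inv_mem_CH hh)
    refine mem_CH.2 ⟨h1, ?_⟩
    rw [hc]
    exact Commute.mul_right h4 h5.2
  exact hne ((S.eq_of_le hx hx1 hcN hc1 h1).trans (S.eq_of_le hy hy1 hcN hc1 h2).symm)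

theorem comm {u v : G} (hu : u ∈ N) (hv : v ∈ N) : u * v = v * u := by
  by_cases hu1 : u = 1
  · simp [hu1]
  by_cases hv1 : v = 1
  · simp [hv1]
  by_cases hne : CH H u = CH H v
  swap
  · exact S.comm_of_ne hu hu1 hv hv1 hne
  obtain ⟨y, hy, hy1, hyne⟩ := S.exists_ne hu hu1
  have h1 : u * y = y * u := S.comm_of_ne hu hu1 hy hy1 hyne.symm
  have h2 : v * y = y * v := S.comm_of_ne hv hv1 hy hy1 (by rw [← hne]; exact hyne.symm)
  have huy : u * y ≠ 1 := by
    intro h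
    have h3 : y = u⁻¹ := by
      rw [eq_inv_iff_mul_eq_one, ← h, h1]
    apply hyne
    rw [h3]
    exact (S.eq_of_le hu hu1 (N.inv_mem hu) (inv_ne_one.2 hu1) (fun _ h' => S.inv_mem_CH h')).symm
  have huyN : u * y ∈ N := N.mul_mem hu hy
  have hne2 : CH H v ≠ CH H (u * y) := by
    intro h
    apply hyne
    -- `CH (uy) = CH u`; `y = u⁻¹ (uy)`
    have h3 : CH H u ≤ CH H y := by
      intro g hg
      have hg2 : g ∈ CH H (u * y) := by rw [← h, ← hne]; exact hg
      obtain ⟨g1, g2⟩ := mem_CH.1 hg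
      obtain ⟨_, g3⟩ := mem_CH.1 hg2
      refine mem_CH.2 ⟨g1, ?_⟩
      have e : u * (g * y) = u * (y * g) := by
        calc u * (g * y) = (u * g) * y := by group
          _ = (g * u) * y := by rw [g2]
          _ = g * (u * y) := by group
          _ = (u * y) * g := g3
          _ = u * (y * g) := by group
      exact mul_left_cancel e
    exact (S.eq_of_le hu hu1 hy hy1 h3).symm
  have h3 := S.comm_of_ne hv hv1 huyN huy hne2
  -- `v u y = u y v = u v y`
  have h4 : (v * u) * y = (u * v) * y := by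
    calc (v * u) * y = v * (u * y) := by group
      _ = (u * y) * v := h3
      _ = u * (y * v) := by group
      _ = u * (v * y) := by rw [h2]
      _ = (u * v) * y := by group
  exact (mul_right_cancel h4).symm

/-- No proper `H`-invariant subgroup. -/
theorem invariant (K : Subgroup G) (hKN : K ≤ N) (hK : ∀ h ∈ H, ∀ k ∈ K, h * k * h⁻¹ ∈ K) :
    K = ⊥ ∨ K = N := by
  by_contra hcon
  push Not at hcon
  obtain ⟨hb, hne⟩ := hcon
  obtain ⟨k₀, hk₀1⟩ := Subgroup.ne_bot_iff_exists_ne_one.1 hb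
  have hk₀ : (k₀ : G) ∈ K := k₀.2
  have hk₀1' : (k₀ : G) ≠ 1 := fun h => hk₀1 (Subtype.ext h)
  -- for `y ∉ K`, and `k ∈ K`: `CH y ≤ CH k`
  have key : ∀ y ∈ N, y ∉ K → ∀ k ∈ K, CH H (y * k) = CH H y := by
    intro y hy hyK k hk
    let A : Set G := (fun k => y * k) '' (K : Set G)
    have hyA : y ∈ A := ⟨1, K.one_mem, by simp⟩
    have hmem : ∀ a ∈ A, a ∈ N ∧ a ≠ 1 := by
      rintro _ ⟨u, hu, rfl⟩
      refine ⟨N.mul_mem hy (hKN hu), ?_⟩
      intro h
      apply hyK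
      have : y = u⁻¹ := by
        simpa using eq_inv_of_mul_eq_one_left h
      rw [this]
      exact K.inv_mem hu
    have hcard : Nat.card A ∣ Nat.card N := by
      have h1 : Nat.card A = Nat.card K :=
        Nat.card_image_of_injective (fun _ _ h => mul_left_cancel h) (K : Set G)
      rw [h1]
      exact Subgroup.card_dvd_of_le hKN
    have := trick H S.card (by have := S.m1; omega) A ⟨y, hyA⟩
      (fun a ha => S.um a (hmem a ha).1 (hmem a ha).2)
      (Nat.Coprime.coprime_dvd_left hcard S.cop)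
      (by
        rintro _ ⟨u, hu, rfl⟩ h hh _ ⟨v, hv, rfl⟩
        obtain ⟨h1, h2⟩ := mem_CH.1 hh
        have h3 : h * (y * u) * h⁻¹ = y * u := by
          rw [h2]
          group
        have e : h * (y * v) * h⁻¹ = (h * (y * u) * h⁻¹) * (h * (u⁻¹ * v) * h⁻¹) := by group
        rw [e, h3]
        exact ⟨u * (h * (u⁻¹ * v) * h⁻¹), K.mul_mem hu (hK h h1 _ (K.mul_mem (K.inv_mem hu) hv)),
          by group⟩)
    exact this _ ⟨k, hk, rfl⟩ y hyA
  have key2 : ∀ y ∈ N, y ∉ K → ∀ k ∈ K, k ≠ 1 → CH H y = CH H k := by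
    intro y hy hyK k hk hk1
    apply S.eq_of_le hy (fun h => hyK (h ▸ K.one_mem)) (hKN hk) hk1
    intro h hh
    obtain ⟨h1, h2⟩ := mem_CH.1 hh
    have h3 : h ∈ CH H (y * k) := by rw [key y hy hyK k hk]; exact hh
    obtain ⟨_, h4⟩ := mem_CH.1 h3
    refine mem_CH.2 ⟨h1, ?_⟩
    have e : y * (h * k) = y * (k * h) := by
      calc y * (h * k) = (y * h) * k := by group
        _ = (h * y) * k := by rw [h2]
        _ = h * (y * k) := by group
        _ = (y * k) * h := h4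
        _ = y * (k * h) := by group
    exact mul_left_cancel e
  obtain ⟨z, hz, hz1, hzne⟩ := S.exists_ne (hKN hk₀) hk₀1'
  -- every element is related to `k₀`
  have hall : ∀ k ∈ K, k ≠ 1 → CH H k = CH H (k₀ : G) := by
    intro k hk hk1
    have hlt : ∃ y ∈ N, y ∉ K := by
      by_contra hno
      push Not at hno
      exact hne (le_antisymm hKN hno)
    obtain ⟨y, hy, hyK⟩ := hlt
    rw [← key2 y hy hyK k hk hk1, key2 y hy hyK k₀ hk₀ hk₀1']
  by_cases hzK : z ∈ K
  · exact hzne (hall z hzK hz1)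
  · exact hzne (key2 z hz hzK k₀ hk₀ hk₀1')

/-- Elementary abelian. -/
theorem elementary (hN1 : N ≠ ⊥) : ∃ p : ℕ, p.Prime ∧ ∀ x ∈ N, x ^ p = 1 := by
  classical
  have hnt : Nontrivial N := (Subgroup.nontrivial_iff_ne_bot N).2 hN1
  obtain ⟨p, hp, hpd⟩ := Nat.exists_prime_and_dvd (Finite.one_lt_card (α := N)).ne'
  haveI : Fact p.Prime := ⟨hp⟩
  refine ⟨p, hp, ?_⟩
  let K : Subgroup G :=
    { carrier := {x | x ∈ N ∧ x ^ p = 1}
      one_mem' := ⟨N.one_mem, one_pow _⟩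
      mul_mem' := by
        rintro a b ⟨ha, ha'⟩ ⟨hb, hb'⟩
        refine ⟨N.mul_mem ha hb, ?_⟩
        have hc : Commute a b := S.comm ha hb
        rw [hc.mul_pow, ha', hb', one_mul]
      inv_mem' := by
        rintro a ⟨ha, ha'⟩
        exact ⟨N.inv_mem ha, by rw [inv_pow, ha', inv_one]⟩ }
  have hKN : K ≤ N := fun x hx => hx.1
  have hK := S.invariant K hKN (by
    rintro h hh k ⟨hk, hk'⟩
    exact ⟨S.conj_mem hh hk, by rw [conj_pow, hk']; group⟩)
  obtain ⟨x, hx⟩ := exists_prime_orderOf_dvd_card' p hpd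
  have hxK : (x : G) ∈ K := ⟨x.2, by
    have := pow_orderOf_eq_one x
    rw [hx] at this
    exact congrArg Subtype.val this⟩
  have hx1 : (x : G) ≠ 1 := by
    intro h
    have h0 : x = 1 := Subtype.ext h
    rw [h0, orderOf_one] at hx
    exact hp.one_lt.ne hx
  rcases hK with hK | hK
  · rw [hK, Subgroup.mem_bot] at hxK
    exact absurd hxK hx1
  · intro y hy
    rw [← hK] at hy
    exact hy.2

/-- Every non-trivial normal subgroup contains `N`, given `G = N H`. -/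
theorem le_normal (hfac : ∀ g : G, ∃ n ∈ N, ∃ h ∈ H, g = n * h) (hHN : N ⊓ H = ⊥) (M : Subgroup G) (hM : M.Normal)
    (hM1 : M ≠ ⊥) : N ≤ M := by
  have hnrm := S.nrm
  have h1 := S.invariant (M ⊓ N) inf_le_right (by
    rintro h hh k ⟨hk1, hk2⟩
    exact ⟨hM.conj_mem k hk1 h, S.conj_mem hh hk2⟩)
  rcases h1 with h1 | h1
  · exfalso
    apply hM1
    rw [eq_bot_iff]
    intro g hg
    obtain ⟨n, hn, h, hh, rfl⟩ := hfac g
    -- `g` centralises `N`
    have hc : ∀ x ∈ N, (n * h) * x = x * (n * h) := by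
      intro x hx
      have h2 : (n * h) * x * (n * h)⁻¹ * x⁻¹ ∈ M ⊓ N := by
        constructor
        · have h3 := hM.conj_mem _ (M.inv_mem hg) x
          have e : (n * h) * x * (n * h)⁻¹ * x⁻¹ = (n * h) * (x * (n * h)⁻¹ * x⁻¹) := by group
          rw [e]
          exact M.mul_mem hg h3
        · refine N.mul_mem ?_ (N.inv_mem hx)
          exact hnrm.conj_mem x hx _
      rw [h1, Subgroup.mem_bot] at h2
      have h3 := mul_eq_one_iff_eq_inv.1 h2
      have h4 : (n * h) * x * (n * h)⁻¹ = x := by simpa using h3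
      calc (n * h) * x = ((n * h) * x * (n * h)⁻¹) * (n * h) := by group
        _ = x * (n * h) := by rw [h4]
    have h2 : h = 1 := by
      apply S.faith h hh
      intro x hx
      have h3 := hc x hx
      have h4 : n * (h * x) = n * (x * h) := by
        calc n * (h * x) = (n * h) * x := by group
          _ = x * (n * h) := h3
          _ = (x * n) * h := by group
          _ = (n * x) * h := by rw [S.comm hx hn]
          _ = n * (x * h) := by group
      exact mul_left_cancel h4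
    subst h2
    rw [mul_one] at hg ⊢
    have : n ∈ M ⊓ N := ⟨hg, hn⟩
    rw [h1] at this
    exact this
  · intro x hx
    rw [← h1] at hx
    exact hx.1

end Setup

theorem exists_setup (N H : Subgroup G) (hnrm : N.Normal) {m : ℕ} (hN1 : N ≠ ⊥) (hm1 : 1 < m)
    (um : ∀ x ∈ N, x ≠ 1 → Nat.card (CH H x) = m)
    (faith : ∀ h ∈ H, (∀ x ∈ N, h * x = x * h) → h = 1) : ∃ s, Setup N H m s := by
  classical
  let A : Set G := {x | x ∈ N ∧ x ≠ 1}
  have hA : A.Nonempty := by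
    obtain ⟨k, hk⟩ := Subgroup.ne_bot_iff_exists_ne_one.1 hN1
    exact ⟨k, k.2, fun h => hk (Subtype.ext h)⟩
  obtain ⟨d, hd1, hd2⟩ := uniform_dvd H A (by
      rintro j _ a ⟨ha, ha1⟩
      refine ⟨hnrm.conj_mem a ha j, ?_⟩
      intro h
      apply ha1
      have : a = j⁻¹ * (j * a * j⁻¹) * j := by group
      rw [this, h]
      group) (by omega : 0 < m) hA (fun a ha => um a ha.1 ha.2)
  have hcN : Nat.card N = Nat.card A + 1 := by
    have h1 : (N : Set G) = insert 1 A := by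
      ext x
      constructor
      · intro hx
        by_cases h : x = 1
        · exact Or.inl h
        · exact Or.inr ⟨hx, h⟩
      · rintro (rfl | hx)
        · exact N.one_mem
        · exact hx.1
    have h2 : (1 : G) ∉ A := fun h => h.2 rfl
    have h3 : Set.ncard (N : Set G) = A.ncard + 1 := by
      rw [h1, Set.ncard_insert_of_notMem h2 (Set.toFinite A)]
    rw [Nat.card_coe_set_eq A, ← h3]
    exact (Nat.card_coe_set_eq (N : Set G))
  refine ⟨d, hnrm, hd1, hm1, um, ?_, faith⟩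
  rw [hcN]
  have h4 : Nat.gcd (Nat.card A + 1) d ∣ 1 := by
    have h5 : Nat.gcd (Nat.card A + 1) d ∣ Nat.card A + 1 := Nat.gcd_dvd_left _ _
    have h6 : Nat.gcd (Nat.card A + 1) d ∣ Nat.card A := (Nat.gcd_dvd_right _ _).trans hd2
    exact (Nat.dvd_add_right h6).1 h5
  exact Nat.dvd_one.1 h4

end Cfsg.Agent.H16.ThreeHalf
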